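/-
Relators for the chain of subgroups of the presented Harada-Norton group.
-/
import Cfsg.Prelude.Def_Spor_HN
import Mathlib

set_option autoImplicit false

namespace Cfsg.Agent.Lib.Compute.TC.HNRel

/-- the relators on y -/
def rsY : List (FreeGroup (Fin 1)) := [
  (FreeGroup.of (0 : Fin 1)) ^ 6 ]

/-- the relators on x, y -/
def rsU : List (FreeGroup (Fin 2)) := [
  (FreeGroup.of (1 : Fin 2)) ^ 6,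
  ((FreeGroup.of (0 : Fin 2)) ^ 2) * (FreeGroup.of (1 : Fin 2)) * ((FreeGroup.of (0 : Fin 2)) ^ 2) * ((FreeGroup.of (1 : Fin 2))⁻¹),
  ((FreeGroup.of (0 : Fin 2))⁻¹ * (FreeGroup.of (1 : Fin 2))⁻¹ * (FreeGroup.of (0 : Fin 2)) * (FreeGroup.of (1 : Fin 2))) ^ 3,
  (((FreeGroup.of (0 : Fin 2))⁻¹) * ((FreeGroup.of (1 : Fin 2)) ^ 2) * (FreeGroup.of (0 : Fin 2)) * ((FreeGroup.of (1 : Fin 2)) ^ 3)) ^ 3,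
  ((FreeGroup.of (0 : Fin 2)) * (FreeGroup.of (1 : Fin 2))) ^ 8,
  ((FreeGroup.of (0 : Fin 2)) * (FreeGroup.of (1 : Fin 2)) * (FreeGroup.of (0 : Fin 2)) * ((FreeGroup.of (1 : Fin 2)) ^ 3)) ^ 4 ]

/-- the relators on x, y, z -/
def rsP : List (FreeGroup (Fin 3)) := [
  (FreeGroup.of (1 : Fin 3)) ^ 6,
  ((FreeGroup.of (0 : Fin 3)) ^ 2) * (FreeGroup.of (1 : Fin 3)) * ((FreeGroup.of (0 : Fin 3)) ^ 2) * ((FreeGroup.of (1 : Fin 3))⁻¹),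
  ((FreeGroup.of (0 : Fin 3))⁻¹ * (FreeGroup.of (1 : Fin 3))⁻¹ * (FreeGroup.of (0 : Fin 3)) * (FreeGroup.of (1 : Fin 3))) ^ 3,
  (((FreeGroup.of (0 : Fin 3))⁻¹) * ((FreeGroup.of (1 : Fin 3)) ^ 2) * (FreeGroup.of (0 : Fin 3)) * ((FreeGroup.of (1 : Fin 3)) ^ 3)) ^ 3,
  ((FreeGroup.of (0 : Fin 3)) * (FreeGroup.of (1 : Fin 3))) ^ 8,
  ((FreeGroup.of (0 : Fin 3)) * (FreeGroup.of (1 : Fin 3)) * (FreeGroup.of (0 : Fin 3)) * ((FreeGroup.of (1 : Fin 3)) ^ 3)) ^ 4,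
  (FreeGroup.of (2 : Fin 3)) ^ 2,
  ((FreeGroup.of (2 : Fin 3)) * (FreeGroup.of (0 : Fin 3))) ^ 2,
  ((FreeGroup.of (2 : Fin 3))⁻¹ * ((FreeGroup.of (1 : Fin 3)) * (FreeGroup.of (0 : Fin 3)) * (FreeGroup.of (1 : Fin 3)) * (FreeGroup.of (0 : Fin 3)) * ((FreeGroup.of (1 : Fin 3)) ^ 2) * (FreeGroup.of (0 : Fin 3)) * ((FreeGroup.of (1 : Fin 3))⁻¹))⁻¹ * (FreeGroup.of (2 : Fin 3)) * ((FreeGroup.of (1 : Fin 3)) * (FreeGroup.of (0 : Fin 3)) * (FreeGroup.of (1 : Fin 3)) * (FreeGroup.of (0 : Fin 3)) * ((FreeGroup.of (1 : Fin 3)) ^ 2) * (FreeGroup.of (0 : Fin 3)) * ((FreeGroup.of (1 : Fin 3))⁻¹))) * (((FreeGroup.of (0 : Fin 3)) ^ 2)⁻¹),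
  (FreeGroup.of (2 : Fin 3)) * ((((((FreeGroup.of (1 : Fin 3)) ^ 3) * (FreeGroup.of (0 : Fin 3)) * (FreeGroup.of (1 : Fin 3)) * (FreeGroup.of (0 : Fin 3)) * (FreeGroup.of (1 : Fin 3)))⁻¹ * (FreeGroup.of (2 : Fin 3)) * (((FreeGroup.of (1 : Fin 3)) ^ 3) * (FreeGroup.of (0 : Fin 3)) * (FreeGroup.of (1 : Fin 3)) * (FreeGroup.of (0 : Fin 3)) * (FreeGroup.of (1 : Fin 3)))) * (FreeGroup.of (0 : Fin 3))) ^ 3) ]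

/-- the word of the kernel of the three-fold cover, on x, y -/
def cU : FreeGroup (Fin 2) := (FreeGroup.of (0 : Fin 2))⁻¹ * (((FreeGroup.of (1 : Fin 2))⁻¹ ^ 2) * (FreeGroup.of (0 : Fin 2)) * (FreeGroup.of (1 : Fin 2)) * (FreeGroup.of (0 : Fin 2)) * (FreeGroup.of (1 : Fin 2)) * (FreeGroup.of (0 : Fin 2)) * ((FreeGroup.of (1 : Fin 2))⁻¹ ^ 2))⁻¹ * (FreeGroup.of (0 : Fin 2)) * (((FreeGroup.of (1 : Fin 2))⁻¹ ^ 2) * (FreeGroup.of (0 : Fin 2)) * (FreeGroup.of (1 : Fin 2)) * (FreeGroup.of (0 : Fin 2)) * (FreeGroup.of (1 : Fin 2)) * (FreeGroup.of (0 : Fin 2)) * ((FreeGroup.of (1 : Fin 2))⁻¹ ^ 2))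

/-- the word of the kernel of the three-fold cover, on x, y, z -/
def cP : FreeGroup (Fin 3) := (FreeGroup.of (0 : Fin 3))⁻¹ * (((FreeGroup.of (1 : Fin 3))⁻¹ ^ 2) * (FreeGroup.of (0 : Fin 3)) * (FreeGroup.of (1 : Fin 3)) * (FreeGroup.of (0 : Fin 3)) * (FreeGroup.of (1 : Fin 3)) * (FreeGroup.of (0 : Fin 3)) * ((FreeGroup.of (1 : Fin 3))⁻¹ ^ 2))⁻¹ * (FreeGroup.of (0 : Fin 3)) * (((FreeGroup.of (1 : Fin 3))⁻¹ ^ 2) * (FreeGroup.of (0 : Fin 3)) * (FreeGroup.of (1 : Fin 3)) * (FreeGroup.of (0 : Fin 3)) * (FreeGroup.of (1 : Fin 3)) * (FreeGroup.of (0 : Fin 3)) * ((FreeGroup.of (1 : Fin 3))⁻¹ ^ 2))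

/-- the relators of the group with two consequences added -/
def rsG : List (FreeGroup Cfsg.Spor.HN.Gen) := Cfsg.Spor.HN.extra ++ [Cfsg.Spor.HN.x ^ 4, Cfsg.Spor.HN.x⁻¹ * ((Cfsg.Spor.HN.y⁻¹ ^ 2) * Cfsg.Spor.HN.x * Cfsg.Spor.HN.y * Cfsg.Spor.HN.x * Cfsg.Spor.HN.y * Cfsg.Spor.HN.x * (Cfsg.Spor.HN.y⁻¹ ^ 2))⁻¹ * Cfsg.Spor.HN.x * ((Cfsg.Spor.HN.y⁻¹ ^ 2) * Cfsg.Spor.HN.x * Cfsg.Spor.HN.y * Cfsg.Spor.HN.x * Cfsg.Spor.HN.y * Cfsg.Spor.HN.x * (Cfsg.Spor.HN.y⁻¹ ^ 2))]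

end Cfsg.Agent.Lib.Compute.TC.HNRel
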